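import Cfsg.Agent.Lib.Helper2.Focal
import Cfsg.Agent.Lib.Helper2.NPC
import Cfsg.Agent.Lib.Helper7.Coprime
import Cfsg.Agent.Lib.Helper7.Compl

set_option autoImplicit false
set_option linter.style.haveILetI false

namespace Cfsg.Agent.Lib.Helper9

open Cfsg
open scoped Pointwise commutatorElement

universe u

/-- If `Q ⊴ M` lies in a Sylow `p`-subgroup `P` with `P/Q` abelian, `Q` consists of non-generators
of `P`, and `N_M(P)` acts trivially on `P/Q`, then `M` has a normal `p`-complement. -/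
theorem npc_of_fusion {M : Type u} [Group M] [Finite M] {p : ℕ} [Fact p.Prime] (P : Sylow p M)
    (Q : Subgroup M) [hQn : Q.Normal] (hQP : Q ≤ (P : Subgroup M))
    (hcomm : ∀ x ∈ (P : Subgroup M), ∀ y ∈ (P : Subgroup M), ⁅x, y⁆ ∈ Q)
    (hfrat : ∀ H : Subgroup M, H ≤ (P : Subgroup M) → (P : Subgroup M) ≤ Q ⊔ H →
      H = (P : Subgroup M))
    (hfus : ∀ n ∈ Subgroup.normalizer ((P : Subgroup M) : Set M), ∀ x ∈ (P : Subgroup M),
      ⁅x, n⁆ ∈ Q) :
    Cfsg.HasNormalPComplement p M := by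
  classical
  have hp : p.Prime := Fact.out
  -- Step 1: the focal subgroup lies in Q
  have hfoc : (P : Subgroup M).focalSubgroup ≤ Q := by
    rw [Subgroup.focalSubgroup_def, Subgroup.closure_le]
    rintro g ⟨hgP, x, hxP, u, rfl⟩
    let C : Subgroup M := (Subgroup.centralizer
      ({(QuotientGroup.mk' Q) x} : Set (M ⧸ Q))).comap (QuotientGroup.mk' Q)
    have hCmem : ∀ m : M, m ∈ C ↔ ⁅x, m⁆ ∈ Q := by
      intro m
      show (QuotientGroup.mk' Q) m ∈ Subgroup.centralizer _ ↔ _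
      rw [Subgroup.mem_centralizer_iff]
      simp only [Set.mem_singleton_iff, forall_eq]
      rw [← QuotientGroup.eq_one_iff, ← QuotientGroup.mk'_apply, map_commutatorElement,
        commutatorElement_eq_one_iff_commute]
      exact Iff.rfl
    have h1 : (P : Subgroup M) ≤ C := fun y hy => (hCmem y).mpr (hcomm x hxP y hy)
    have hux : u * x⁻¹ * u⁻¹ ∈ (P : Subgroup M) := by
      have e : u * x⁻¹ * u⁻¹ = x⁻¹ * ⁅x, u⁆ := by rw [commutatorElement_def]; group
      rw [e]; exact Subgroup.mul_mem _ (Subgroup.inv_mem _ hxP) hgP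
    have hux' : u * x * u⁻¹ ∈ (P : Subgroup M) := by
      have h := Subgroup.inv_mem _ hux
      have e : (u * x⁻¹ * u⁻¹)⁻¹ = u * x * u⁻¹ := by group
      rwa [e] at h
    have h2 : ((u⁻¹ • P : Sylow p M) : Subgroup M) ≤ C := by
      rw [Sylow.coe_subgroup_smul]
      rintro _ ⟨w, hw, rfl⟩
      rw [hCmem]
      show ⁅x, u⁻¹ * w * u⁻¹⁻¹⁆ ∈ Q
      have e : ⁅x, u⁻¹ * w * u⁻¹⁻¹⁆ = u⁻¹ * ⁅u * x * u⁻¹, w⁆ * u⁻¹⁻¹ := by
        simp only [commutatorElement_def]; group
      rw [e]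
      exact hQn.conj_mem _ (hcomm _ hux' w hw) u⁻¹
    obtain ⟨c, hc⟩ := MulAction.exists_smul_eq C ((u⁻¹ • P).subtype h2) (P.subtype h1)
    simp_rw [Sylow.smul_subtype, Subgroup.smul_def, smul_smul] at hc
    have hn : (c : M) * u⁻¹ ∈ Subgroup.normalizer ((P : Subgroup M) : Set M) :=
      Sylow.smul_eq_iff_mem_normalizer.mp (Sylow.subtype_injective hc)
    have hnC : ((c : M) * u⁻¹)⁻¹ ∈ C :=
      (hCmem _).mpr (hfus _ (Subgroup.inv_mem _ hn) x hxP)
    have huC : u ∈ C := by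
      have h := Subgroup.mul_mem C hnC c.2
      have e : ((c : M) * u⁻¹)⁻¹ * c = u := by group
      rwa [e] at h
    exact (hCmem u).mp huC
  -- Step 2: the normal subgroup L
  obtain ⟨K, hKn, hKP, hKsup⟩ : ∃ K : Subgroup M, K.Normal ∧
      K ⊓ (P : Subgroup M) = (P : Subgroup M).focalSubgroup ∧ K ⊔ (P : Subgroup M) = ⊤ :=
    ⟨_, MonoidHom.normal_ker _, Subgroup.ker_transferFocal_inf_eq_focalSubgroup P,
      Cfsg.Agent.Lib.Helper2.ker_transferFocal_sup_eq_top P⟩
  haveI := hKn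
  have hLn : (K ⊔ Q).Normal := inferInstance
  have hLP : (K ⊔ Q) ⊓ (P : Subgroup M) = Q := by
    apply le_antisymm
    · intro y hy
      obtain ⟨hyL, hyP⟩ := Subgroup.mem_inf.mp hy
      obtain ⟨k, hk, q, hq, rfl⟩ := Subgroup.mem_sup_of_normal_left.mp hyL
      have hkP : k ∈ (P : Subgroup M) := by
        have h := Subgroup.mul_mem _ hyP (Subgroup.inv_mem _ (hQP hq))
        rwa [mul_inv_cancel_right] at h
      have hkQ : k ∈ Q := hfoc (hKP ▸ Subgroup.mem_inf.mpr ⟨hk, hkP⟩)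
      exact Subgroup.mul_mem _ hkQ hq
    · exact le_inf le_sup_right hQP
  have hLsup : (K ⊔ Q) ⊔ (P : Subgroup M) = ⊤ := by
    rw [eq_top_iff, ← hKsup]; exact sup_le_sup_right le_sup_left _
  have hQL : Q ≤ K ⊔ Q := le_sup_right
  generalize K ⊔ Q = L at hLn hLP hLsup hQL
  have hLidx : L.index = L.relIndex (P : Subgroup M) := by
    have h := Subgroup.relIndex_sup_right (H := (P : Subgroup M)) (K := L)
    rw [sup_comm, hLsup, Subgroup.relIndex_top_right] at h
    exact h
  have hA : Nat.card Q * L.index = Nat.card (P : Subgroup M) := by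
    rw [hLidx, ← Subgroup.inf_relIndex_right, hLP]
    have h := Subgroup.card_mul_index (Q.subgroupOf (P : Subgroup M))
    rw [Cfsg.Agent.Lib.Helper7.card_subgroupOf_of_le hQP] at h
    exact h
  have hLpos : 0 < L.index := Nat.pos_of_ne_zero Subgroup.index_ne_zero_of_finite
  have hB : Nat.card L = Nat.card Q * (P : Subgroup M).index := by
    have h1 := Subgroup.card_mul_index L
    have h2 := Subgroup.card_mul_index (P : Subgroup M)
    apply Nat.eq_of_mul_eq_mul_right hLpos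
    rw [h1, ← h2, ← hA]; ring
  have hPidx : ((P : Subgroup M).index).Coprime p :=
    ((Nat.Prime.coprime_iff_not_dvd hp).mpr P.not_dvd_index).symm
  obtain ⟨c, hc⟩ := IsPGroup.iff_card.mp (P.isPGroup'.to_le hQP)
  have hQ'card : Nat.card (Q.subgroupOf L) = Nat.card Q :=
    Cfsg.Agent.Lib.Helper7.card_subgroupOf_of_le hQL
  have hQ'idx : (Q.subgroupOf L).index = (P : Subgroup M).index := by
    have h := Subgroup.card_mul_index (Q.subgroupOf L)
    rw [hQ'card, hB] at h
    exact Nat.eq_of_mul_eq_mul_left Nat.card_pos h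
  obtain ⟨R', hR'⟩ := Subgroup.exists_right_complement'_of_coprime (N := Q.subgroupOf L)
    (by rw [hQ'card, hQ'idx, hc]; exact Nat.Coprime.pow_left c hPidx.symm)
  have hR'card : Nat.card R' = (P : Subgroup M).index := by
    have h := hR'.card_mul_card
    rw [hQ'card, hB] at h
    exact Nat.eq_of_mul_eq_mul_left Nat.card_pos h
  obtain ⟨R, hRL, hRcard⟩ : ∃ R : Subgroup M, R ≤ L ∧ Nat.card R = (P : Subgroup M).index := by
    refine ⟨R'.map L.subtype, ?_, ?_⟩
    · rintro _ ⟨y, _, rfl⟩; exact y.2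
    · rw [Subgroup.card_map_of_injective L.subtype_injective, hR'card]
  clear hR' hR'card R'
  have hRQcop : (Nat.card R).Coprime (Nat.card Q) := by
    rw [hRcard, hc]; exact Nat.Coprime.pow_right c hPidx
  have hRnormQ : R ≤ Subgroup.normalizer (Q : Set M) := by
    rw [Subgroup.normalizer_eq_top]; exact le_top
  have hRQ : R ⊔ Q = L := by
    apply Subgroup.eq_of_le_of_card_ge (sup_le hRL hQL)
    rw [Cfsg.Agent.Lib.Helper7.card_sup_of_coprime hRnormQ hRQcop, hRcard, hB]
  have hQsolv : Group.IsSolvable Q := by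
    haveI := (P.isPGroup'.to_le hQP).isNilpotent
    infer_instance
  have hconj : ∀ m : M, ∃ q ∈ Q, q⁻¹ * m ∈ Subgroup.normalizer (R : Set M) := by
    intro m
    have hB' : MulAut.conj m • R ≤ Q ⊔ R := by
      rw [sup_comm, hRQ]
      rintro _ ⟨y, hy, rfl⟩
      exact hLn.conj_mem y (hRL hy) m
    have hcard : Nat.card (MulAut.conj m • R : Subgroup M) = Nat.card R := by
      show Nat.card (R.map (MulAut.conj m).toMonoidHom) = _
      exact Subgroup.card_map_of_injective (MulAut.conj m).injective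
    obtain ⟨q, hq, hqm⟩ := Cfsg.Agent.Lib.Helper7.sz_conj_sub R Q hRnormQ hRQcop
      (Or.inr hQsolv) _ hB' hcard
    refine ⟨q, hq, ?_⟩
    rw [Cfsg.Agent.Lib.Helper7.mem_normalizer_iff_conj_smul, map_mul, map_inv, mul_smul, ← hqm,
      inv_smul_smul]
  have hPR : (P : Subgroup M) ≤ Subgroup.normalizer (R : Set M) := by
    have h := hfrat ((P : Subgroup M) ⊓ Subgroup.normalizer (R : Set M)) inf_le_left ?_
    · rw [← h]; exact inf_le_right
    · intro m hm
      obtain ⟨q, hq, hqm⟩ := hconj m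
      have e : m = q * (q⁻¹ * m) := by group
      rw [e]
      exact Subgroup.mul_mem_sup hq (Subgroup.mem_inf.mpr
        ⟨Subgroup.mul_mem _ (Subgroup.inv_mem _ (hQP hq)) hm, hqm⟩)
  have hRn : R.Normal := by
    rw [← Subgroup.normalizer_eq_top_iff, eq_top_iff]
    intro m _
    obtain ⟨q, hq, hqm⟩ := hconj m
    have e : m = q * (q⁻¹ * m) := by group
    rw [e]
    exact Subgroup.mul_mem _ (hPR (hQP hq)) hqm
  rw [Cfsg.Agent.Lib.Helper2.hasNormalPComplement_iff]
  obtain ⟨n, hn⟩ := IsPGroup.iff_card.mp P.isPGroup'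
  refine ⟨R, hRn, by rw [hRcard]; exact hPidx, n, ?_⟩
  have h1 := Subgroup.card_mul_index R
  have h2 := Subgroup.card_mul_index (P : Subgroup M)
  rw [hRcard, ← h2, mul_comm] at h1
  rw [← hn]
  exact Nat.eq_of_mul_eq_mul_right (Nat.pos_of_ne_zero Subgroup.index_ne_zero_of_finite) h1

end Cfsg.Agent.Lib.Helper9
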