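import Mathlib

set_option autoImplicit false
set_option linter.style.haveILetI false

namespace Cfsg.Agent.Lib.Helper9

/-- An abelian group `T` acting faithfully and irreducibly on an elementary abelian `p`-group `V`
of order `p ^ d`, normalized by `H`: `T` is cyclic, no `p ^ i - 1` with `0 < i < d` is divisible
by an exponent of `T`, and modulo a subgroup centralizing `T`, `H` is cyclic of order dividing
`d`. -/
theorem h9ia_main {p d : ℕ} [Fact p.Prime] {V : Type*} [AddCommGroup V] [Module (ZMod p) V] [Finite V]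
    (hV : Nat.card V = p ^ d) (hd : 0 < d)
    {H : Type*} [Group H] [Finite H] {T : Type*} [CommGroup T] [Finite T]
    (θ : H →* Module.End (ZMod p) V) (ι : T →* H) (c : H →* MulAut T)
    (hc : ∀ (h : H) (t : T), ι (c h t) = h * ι t * h⁻¹)
    (hfaith : ∀ t : T, θ (ι t) = 1 → t = 1)
    (hirr : ∀ W : AddSubgroup V, (∀ (t : T), ∀ w ∈ W, θ (ι t) w ∈ W) → W = ⊥ ∨ W = ⊤) :
    IsCyclic T ∧ (∀ q : ℕ, (∀ t : T, t ^ q = 1) → Nat.card T ∣ q) ∧
    (∀ q i : ℕ, (∀ t : T, t ^ q = 1) → 0 < i → i < d → ¬ q ∣ p ^ i - 1) ∧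
    ∃ N : Subgroup H, (∀ h ∈ N, ∀ t : T, h * ι t = ι t * h) ∧ N.index ∣ d ∧
      ∃ h₀ : H, ∀ y : H, ∃ n : ℤ, y * h₀ ^ n ∈ N := by
  classical
  have hp : p.Prime := Fact.out
  obtain ⟨ρ, hρ⟩ : ∃ ρ : T →* Module.End (ZMod p) V, ∀ t, ρ t = θ (ι t) :=
    ⟨θ.comp ι, fun t => rfl⟩
  obtain ⟨f, hf, hfs⟩ : ∃ f : MonoidAlgebra (ZMod p) T →ₐ[ZMod p] Module.End (ZMod p) V,
      (∀ t, f (MonoidAlgebra.of (ZMod p) T t) = ρ t) ∧
      (∀ t r, f (MonoidAlgebra.single t r) = r • ρ t) :=
    ⟨MonoidAlgebra.lift (ZMod p) (Module.End (ZMod p) V) T ρ,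
      fun t => MonoidAlgebra.lift_of ρ t, fun t r => MonoidAlgebra.lift_single ρ t r⟩
  have hcomm : ∀ (x : MonoidAlgebra (ZMod p) T) (t : T), f x * ρ t = ρ t * f x := by
    intro x t
    rw [← hf t, ← map_mul, ← map_mul, mul_comm]
  have hker : ∀ x : MonoidAlgebra (ZMod p) T, f x = 0 ∨ Function.Injective (f x) := by
    intro x
    have hW := hirr (f x).toAddMonoidHom.ker (by
      intro t w hw
      have hw' : (f x) w = 0 := hw
      have h1 : (f x) ((ρ t) w) = (ρ t) ((f x) w) := LinearMap.congr_fun (hcomm x t) w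
      rw [← hρ t]
      show (f x) ((ρ t) w) = 0
      rw [h1, hw', map_zero])
    rcases hW with h0 | h1
    · right
      rw [injective_iff_map_eq_zero]
      intro v hv
      have : v ∈ (f x).toAddMonoidHom.ker := hv
      rw [h0] at this
      exact (AddSubgroup.mem_bot).1 this
    · left
      apply LinearMap.ext
      intro v
      have : v ∈ (f x).toAddMonoidHom.ker := by rw [h1]; trivial
      exact this
  have hVnt : Nontrivial V := by
    have h1 : 1 < Nat.card V := by rw [hV]; exact Nat.one_lt_pow hd.ne' hp.one_lt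
    exact (Finite.one_lt_card_iff_nontrivial).1 h1
  obtain ⟨v₀, hv₀⟩ := exists_ne (0 : V)
  obtain ⟨I, hI⟩ : ∃ I : Ideal (MonoidAlgebra (ZMod p) T), ∀ x, x ∈ I ↔ f x = 0 :=
    ⟨RingHom.ker (f : MonoidAlgebra (ZMod p) T →+* Module.End (ZMod p) V),
      fun x => RingHom.mem_ker⟩
  have hprime : I.IsPrime := by
    refine ⟨?_, ?_⟩
    · intro htop
      have h1 : (1 : MonoidAlgebra (ZMod p) T) ∈ I := by rw [htop]; trivial
      rw [hI, map_one] at h1
      have h2 : (1 : Module.End (ZMod p) V) v₀ = (0 : Module.End (ZMod p) V) v₀ := by rw [h1]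
      exact hv₀ h2
    · intro x y hxy
      rw [hI] at hxy
      rw [hI, hI]
      rcases hker x with hx | hx
      · exact Or.inl hx
      · right
        apply LinearMap.ext
        intro v
        have h3 : (f x) ((f y) v) = 0 := by
          have := LinearMap.congr_fun hxy v
          rw [map_mul] at this
          exact this
        apply hx
        show (f x) ((f y) v) = (f x) 0
        rw [map_zero]; exact h3
  haveI := hprime
  obtain ⟨ιK, hιK⟩ : ∃ ιK : (MonoidAlgebra (ZMod p) T ⧸ I) →+* Module.End (ZMod p) V,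
      ∀ x, ιK (Ideal.Quotient.mk I x) = f x :=
    ⟨Ideal.Quotient.lift I (f : MonoidAlgebra (ZMod p) T →+* Module.End (ZMod p) V)
      (fun a ha => (hI a).1 ha), fun x => Ideal.Quotient.lift_mk I _ _⟩
  have hιKinj : Function.Injective ιK := by
    rw [injective_iff_map_eq_zero]
    intro k hk
    obtain ⟨x, rfl⟩ := Ideal.Quotient.mk_surjective k
    rw [hιK] at hk
    exact Ideal.Quotient.eq_zero_iff_mem.2 ((hI x).2 hk)
  haveI hEndfin : Finite (Module.End (ZMod p) V) :=
    Finite.of_injective (fun g : Module.End (ZMod p) V => (g : V → V)) DFunLike.coe_injective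
  haveI hKfin : Finite (MonoidAlgebra (ZMod p) T ⧸ I) := Finite.of_injective ιK hιKinj
  obtain ⟨g, hg⟩ : ∃ g : T →* (MonoidAlgebra (ZMod p) T ⧸ I),
      ∀ t, g t = Ideal.Quotient.mk I (MonoidAlgebra.of (ZMod p) T t) :=
    ⟨(Ideal.Quotient.mk I : MonoidAlgebra (ZMod p) T →+* _).toMonoidHom.comp
      (MonoidAlgebra.of (ZMod p) T), fun t => rfl⟩
  have hιKg : ∀ t, ιK (g t) = ρ t := by
    intro t; rw [hg, hιK, hf]
  have hginj : Function.Injective g := by
    rw [injective_iff_map_eq_one]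
    intro t ht
    apply hfaith
    rw [← hρ, ← hιKg, ht, map_one]
  have hcyc : IsCyclic T := isCyclic_of_injective_ringHom g hginj
  obtain ⟨ev, hev⟩ : ∃ ev : (MonoidAlgebra (ZMod p) T ⧸ I) →+ V, ∀ k, ev k = ιK k v₀ :=
    ⟨{ toFun := fun k => ιK k v₀
       map_zero' := by rw [map_zero]; rfl
       map_add' := by intro a b; rw [map_add]; rfl }, fun k => rfl⟩
  have hevsurj : Function.Surjective ev := by
    have hW := hirr ev.range (by
      rintro t w ⟨k, rfl⟩
      refine ⟨g t * k, ?_⟩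
      rw [hev, hev, map_mul, hιKg, hρ]
      rfl)
    rcases hW with h0 | h1
    · exfalso
      have : v₀ ∈ ev.range := ⟨1, by rw [hev, map_one]; rfl⟩
      rw [h0] at this
      exact hv₀ ((AddSubgroup.mem_bot).1 this)
    · intro v
      have : v ∈ ev.range := by rw [h1]; trivial
      exact this
  have hevinj : Function.Injective ev := by
    rw [injective_iff_map_eq_zero]
    intro k hk
    obtain ⟨x, rfl⟩ := Ideal.Quotient.mk_surjective k
    rw [hev, hιK] at hk
    rcases hker x with hx | hx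
    · exact Ideal.Quotient.eq_zero_iff_mem.2 ((hI x).2 hx)
    · exfalso
      apply hv₀
      apply hx
      rw [hk, map_zero]
  have hKcard : Nat.card (MonoidAlgebra (ZMod p) T ⧸ I) = p ^ d := by
    rw [← hV]
    exact Nat.card_congr (Equiv.ofBijective ev ⟨hevinj, hevsurj⟩)
  haveI hmax : I.IsMaximal := Ideal.Quotient.maximal_of_isField I (Finite.isField_of_domain _)
  letI : Field (MonoidAlgebra (ZMod p) T ⧸ I) := Ideal.Quotient.field I
  refine ⟨hcyc, ?_, ?_, ?_⟩
  · intro q hq
    haveI := hcyc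
    obtain ⟨t₀, ht₀⟩ := IsCyclic.exists_generator (α := T)
    rw [← orderOf_eq_card_of_forall_mem_zpowers ht₀]
    exact orderOf_dvd_of_pow_eq_one (hq t₀)
  · intro q i hq hi hid hqi
    have hinj : Function.Injective (algebraMap (ZMod p) (MonoidAlgebra (ZMod p) T ⧸ I)) :=
      RingHom.injective _
    haveI : CharP (MonoidAlgebra (ZMod p) T ⧸ I) p := charP_of_injective_algebraMap hinj p
    have htpow : ∀ t : T, t ^ p ^ i = t := by
      intro t
      obtain ⟨m, hm⟩ := hqi
      have h1 : 1 ≤ p ^ i := Nat.one_le_pow _ _ hp.pos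
      have h2 : p ^ i = q * m + 1 := by omega
      rw [h2, pow_succ, pow_mul, hq, one_pow, one_mul]
    have hpow : ∀ k : MonoidAlgebra (ZMod p) T ⧸ I, k ^ p ^ i = k := by
      intro k
      obtain ⟨x, rfl⟩ := Ideal.Quotient.mk_surjective k
      induction x using MonoidAlgebra.induction_linear with
      | zero => rw [map_zero]; exact zero_pow (pow_pos hp.pos i).ne'
      | add x y hx hy => rw [map_add, add_pow_char_pow, hx, hy]
      | single t r => rw [← map_pow, MonoidAlgebra.single_pow, htpow, ZMod.pow_card_pow]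
    haveI : Fintype (MonoidAlgebra (ZMod p) T ⧸ I) := Fintype.ofFinite _
    have hroots := Polynomial.card_le_degree_of_subset_roots
      (p := (Polynomial.X ^ p ^ i - Polynomial.X : Polynomial (MonoidAlgebra (ZMod p) T ⧸ I)))
      (Z := Finset.univ) (fun x _ => by
        rw [Polynomial.mem_roots (FiniteField.X_pow_card_pow_sub_X_ne_zero _ hi.ne' hp.one_lt)]
        simp [Polynomial.IsRoot, hpow x])
    rw [FiniteField.X_pow_card_pow_sub_X_natDegree_eq _ hi.ne' hp.one_lt, Finset.card_univ,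
      ← Nat.card_eq_fintype_card, hKcard] at hroots
    have := (Nat.pow_le_pow_iff_right hp.one_lt).1 hroots
    omega
  · have hfr : Module.finrank (ZMod p) (MonoidAlgebra (ZMod p) T ⧸ I) = d := by
      haveI : Fintype (MonoidAlgebra (ZMod p) T ⧸ I) := Fintype.ofFinite _
      have h1 := Module.card_eq_pow_finrank (K := ZMod p) (V := MonoidAlgebra (ZMod p) T ⧸ I)
      rw [ZMod.card, ← Nat.card_eq_fintype_card, hKcard] at h1
      exact (Nat.pow_right_injective hp.two_le h1).symm
    haveI : FiniteDimensional (ZMod p) (MonoidAlgebra (ZMod p) T ⧸ I) := Module.Finite.of_finite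
    have hgal : Nat.card ((MonoidAlgebra (ZMod p) T ⧸ I) ≃ₐ[ZMod p]
        (MonoidAlgebra (ZMod p) T ⧸ I)) = d := by
      rw [IsGalois.card_aut_eq_finrank, hfr]
    obtain ⟨A, hA⟩ : ∃ A : H →* (MonoidAlgebra (ZMod p) T ≃ₐ[ZMod p] MonoidAlgebra (ZMod p) T),
        ∀ h t r, A h (MonoidAlgebra.single t r) = MonoidAlgebra.single (c h t) r :=
      ⟨(MonoidAlgebra.domCongrAut (R := ZMod p) (A := ZMod p) (M := T)).comp c,
        fun h t r => MonoidAlgebra.domCongr_single (R := ZMod p) (c h) t r⟩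
    have hinter : ∀ (h : H) (x : MonoidAlgebra (ZMod p) T), f (A h x) * θ h = θ h * f x := by
      intro h x
      induction x using MonoidAlgebra.induction_linear with
      | zero => simp
      | add x y hx hy => simp only [map_add, add_mul, mul_add, hx, hy]
      | single t r =>
        have key : θ (h * ι t * h⁻¹) * θ h = θ h * θ (ι t) := by
          rw [← map_mul, ← map_mul]; congr 1; group
        rw [hA, hfs, hfs, smul_mul_assoc, mul_smul_comm, hρ, hρ, hc, key]
    have hle : ∀ h : H, I ≤ I.comap ((A h : MonoidAlgebra (ZMod p) T ≃ₐ[ZMod p]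
        MonoidAlgebra (ZMod p) T) : MonoidAlgebra (ZMod p) T →ₐ[ZMod p] MonoidAlgebra (ZMod p) T) := by
      intro h x hx
      rw [Ideal.mem_comap, hI]
      rw [hI] at hx
      have h1 := hinter h x
      rw [hx, mul_zero] at h1
      have h2 : f (A h x) = f (A h x) * θ h * θ h⁻¹ := by
        rw [mul_assoc, ← map_mul, mul_inv_cancel, map_one, mul_one]
      show f (A h x) = 0
      rw [h2, h1, zero_mul]
    obtain ⟨Φ₀, hΦ₀⟩ : ∃ Φ₀ : H →* ((MonoidAlgebra (ZMod p) T ⧸ I) →ₐ[ZMod p]
        (MonoidAlgebra (ZMod p) T ⧸ I)),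
        ∀ h x, Φ₀ h (Ideal.Quotient.mk I x) = Ideal.Quotient.mk I (A h x) :=
      ⟨{ toFun := fun h => Ideal.quotientMapₐ I ((A h : MonoidAlgebra (ZMod p) T ≃ₐ[ZMod p]
            MonoidAlgebra (ZMod p) T) : MonoidAlgebra (ZMod p) T →ₐ[ZMod p]
            MonoidAlgebra (ZMod p) T) (hle h)
         map_one' := by
           apply AlgHom.ext
           intro k
           obtain ⟨x, rfl⟩ := Ideal.Quotient.mk_surjective k
           show Ideal.Quotient.mk I ((A 1) x) = Ideal.Quotient.mk I x
           rw [map_one]; rfl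
         map_mul' := by
           intro a b
           apply AlgHom.ext
           intro k
           obtain ⟨x, rfl⟩ := Ideal.Quotient.mk_surjective k
           show Ideal.Quotient.mk I ((A (a * b)) x) = Ideal.Quotient.mk I ((A a) ((A b) x))
           rw [map_mul]; rfl }, fun h x => rfl⟩
    obtain ⟨Φ, hΦ⟩ : ∃ Φ : H →* ((MonoidAlgebra (ZMod p) T ⧸ I) ≃ₐ[ZMod p]
        (MonoidAlgebra (ZMod p) T ⧸ I)),
        ∀ h x, Φ h (Ideal.Quotient.mk I x) = Ideal.Quotient.mk I (A h x) :=
      ⟨(AlgEquiv.algHomUnitsEquiv (ZMod p) _).toMonoidHom.comp Φ₀.toHomUnits,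
        fun h x => hΦ₀ h x⟩
    refine ⟨Φ.ker, ?_, ?_, ?_⟩
    · intro h hh t
      rw [MonoidHom.mem_ker] at hh
      have h1 := hΦ h (MonoidAlgebra.single t 1)
      rw [hh, hA] at h1
      have h2 : g t = g (c h t) := by
        rw [hg, hg, MonoidAlgebra.of_apply, MonoidAlgebra.of_apply]; exact h1
      have h3 := hginj h2
      have h4 := hc h t
      rw [← h3] at h4
      calc h * ι t = (h * ι t * h⁻¹) * h := by group
        _ = ι t * h := by rw [← h4]
    · rw [Subgroup.index_ker]
      have := Subgroup.card_subgroup_dvd_card Φ.range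
      rw [hgal] at this
      exact this
    · obtain ⟨⟨γ, hγ⟩, hgen⟩ := IsCyclic.exists_generator (α := Φ.range)
      obtain ⟨h₁, rfl⟩ := hγ
      refine ⟨h₁⁻¹, fun y => ?_⟩
      have hy := hgen ⟨Φ y, ⟨y, rfl⟩⟩
      obtain ⟨n, hn⟩ := Subgroup.mem_zpowers_iff.1 hy
      refine ⟨n, ?_⟩
      have hn' : (Φ h₁) ^ n = Φ y := by
        have := congrArg Subtype.val hn
        simpa using this
      rw [MonoidHom.mem_ker, map_mul, map_zpow, map_inv, inv_zpow, hn', mul_inv_cancel]

end Cfsg.Agent.Lib.Helper9
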