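import Mathlib
import Cfsg.Prelude.Def_SolvableStructure

set_option autoImplicit false

namespace Cfsg.Agent.Lib.Helper9

open Subgroup

universe u v

inductive SSC {G : Type u} [Group G] (B : Subgroup G) : Subgroup G → Prop
  | refl : B.Normal → SSC B B
  | step (K : Subgroup G) (g : G) : SSC B K → (K ⊔ zpowers g).Normal → SSC B (K ⊔ zpowers g)

theorem SSC.normal_right {G : Type u} [Group G] {B K : Subgroup G} (h : SSC B K) : K.Normal := by
  cases h with
  | refl hB => exact hB
  | step K g _ hn => exact hn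

theorem SSC.trans {G : Type u} [Group G] {A B C : Subgroup G} (h1 : SSC A B) (h2 : SSC B C) :
    SSC A C := by
  induction h2 with
  | refl _ => exact h1
  | step K g _ hn ih => exact SSC.step K g ih hn

theorem SSC.to_chain {G : Type u} [Group G] {K : Subgroup G} (h : SSC (⊥ : Subgroup G) K) :
    ∃ (n : ℕ) (H : Fin (n + 1) → Subgroup G),
      H 0 = ⊥ ∧ H (Fin.last n) = K ∧ (∀ i, (H i).Normal) ∧
        ∀ i : Fin n, ∃ g : G, H i.succ = H i.castSucc ⊔ Subgroup.zpowers g := by
  induction h with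
  | refl hB => exact ⟨0, fun _ => ⊥, rfl, rfl, fun _ => hB, fun i => i.elim0⟩
  | step K g _ hn ih =>
    obtain ⟨n, H, h0, hl, hnorm, hs⟩ := ih
    refine ⟨n + 1, Fin.snoc H (K ⊔ zpowers g), ?_, ?_, ?_, ?_⟩
    · have : (0 : Fin (n + 1 + 1)) = Fin.castSucc (0 : Fin (n + 1)) := rfl
      rw [this, Fin.snoc_castSucc]; exact h0
    · exact Fin.snoc_last _ _
    · intro i
      refine Fin.lastCases ?_ (fun j => ?_) i
      · rw [Fin.snoc_last]; exact hn
      · rw [Fin.snoc_castSucc]; exact hnorm j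
    · intro i
      refine Fin.lastCases ?_ (fun j => ?_) i
      · refine ⟨g, ?_⟩
        rw [Fin.succ_last, Fin.snoc_last, Fin.snoc_castSucc, hl]
      · obtain ⟨g', hg'⟩ := hs j
        refine ⟨g', ?_⟩
        rw [Fin.succ_castSucc, Fin.snoc_castSucc, Fin.snoc_castSucc, hg']

theorem isSupersolvable_iff {G : Type u} [Group G] :
    Cfsg.IsSupersolvable G ↔ SSC (⊥ : Subgroup G) ⊤ := by
  constructor
  · rintro ⟨n, H, h0, hlast, hnorm, hstep⟩
    have key : ∀ i : Fin (n + 1), SSC (⊥ : Subgroup G) (H i) := by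
      intro i
      induction i using Fin.induction with
      | zero => rw [h0]; exact SSC.refl inferInstance
      | succ i ih =>
        obtain ⟨g, hg⟩ := hstep i
        rw [hg]
        exact SSC.step _ g ih (hg ▸ hnorm i.succ)
    rw [← hlast]; exact key _
  · intro h
    exact h.to_chain

theorem SSC.map {G : Type u} {G' : Type v} [Group G] [Group G'] (f : G →* G')
    (hf : ∀ K : Subgroup G, K.Normal → (K.map f).Normal) {B K : Subgroup G} (h : SSC B K) :
    SSC (B.map f) (K.map f) := by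
  induction h with
  | refl hB => exact SSC.refl (hf _ hB)
  | step K g _ hn ih =>
    have e : (K ⊔ zpowers g).map f = K.map f ⊔ zpowers (f g) := by
      rw [Subgroup.map_sup, MonoidHom.map_zpowers]
    rw [e]; exact SSC.step _ _ ih (e ▸ hf _ hn)

theorem SSC.map_surjective {G : Type u} {G' : Type v} [Group G] [Group G'] (f : G →* G')
    (hf : Function.Surjective f) {B K : Subgroup G} (h : SSC B K) :
    SSC (B.map f) (K.map f) :=
  h.map f (fun _ hK => hK.map f hf)

theorem SSC.comap {G : Type u} {G' : Type v} [Group G] [Group G'] (f : G →* G')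
    (hf : Function.Surjective f) {B K : Subgroup G'} (h : SSC B K) :
    SSC (B.comap f) (K.comap f) := by
  induction h with
  | refl hB => exact SSC.refl (hB.comap f)
  | step K g _ hn ih =>
    obtain ⟨g', rfl⟩ := hf g
    have e : (K ⊔ zpowers (f g')).comap f = K.comap f ⊔ zpowers g' := by
      have h1 : (K.comap f ⊔ zpowers g').map f = K ⊔ zpowers (f g') := by
        rw [Subgroup.map_sup, Subgroup.map_comap_eq_self_of_surjective hf, MonoidHom.map_zpowers]
      rw [← h1, Subgroup.comap_map_eq]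
      apply sup_eq_left.mpr
      refine le_sup_of_le_left ?_
      rw [← MonoidHom.comap_bot]
      exact Subgroup.comap_mono bot_le
    rw [e]; exact SSC.step _ _ ih (e ▸ hn.comap f)

theorem exists_inf_sup_zpowers {G : Type u} [Group G] (K : Subgroup G) [K.Normal] (g : G)
    (L : Subgroup G) :
    ∃ l ∈ L ⊓ (K ⊔ zpowers g), ∀ x ∈ L ⊓ (K ⊔ zpowers g), ∃ m : ℤ, x * (l ^ m)⁻¹ ∈ K := by
  set π := QuotientGroup.mk' K with hπ
  set T := (L ⊓ (K ⊔ zpowers g)).map π with hT
  have hTle : T ≤ zpowers (π g) := by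
    rw [hT]
    refine (Subgroup.map_mono inf_le_right).trans ?_
    rw [Subgroup.map_sup, MonoidHom.map_zpowers, QuotientGroup.map_mk'_self, bot_sup_eq]
  obtain ⟨n, hn⟩ := (Subgroup.le_zpowers_iff (π g) T).mp hTle
  have hmem : (π g) ^ n ∈ T := by rw [hn]; exact mem_zpowers _
  obtain ⟨l, hl, hlg⟩ := hmem
  refine ⟨l, hl, fun x hx => ?_⟩
  have hx' : π x ∈ T := Subgroup.mem_map_of_mem π hx
  rw [hn, ← hlg] at hx'
  obtain ⟨m, hm⟩ := mem_zpowers_iff.mp hx'
  refine ⟨m, ?_⟩
  have : π (x * (l ^ m)⁻¹) = 1 := by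
    rw [map_mul, map_inv, map_zpow, hm, mul_inv_cancel]
  rwa [hπ, QuotientGroup.mk'_apply, QuotientGroup.eq_one_iff] at this

theorem SSC.subgroupOf {G : Type u} [Group G] (L : Subgroup G) {B K : Subgroup G} (h : SSC B K) :
    SSC (B.subgroupOf L) (K.subgroupOf L) := by
  induction h with
  | refl hB => exact SSC.refl (hB.comap _)
  | step K g hK hn ih =>
    have := hK.normal_right
    obtain ⟨l, hl, hgen⟩ := exists_inf_sup_zpowers K g L
    have e : (K ⊔ zpowers g).subgroupOf L = K.subgroupOf L ⊔ zpowers (⟨l, hl.1⟩ : L) := by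
      apply le_antisymm
      · intro x hx
        rw [mem_subgroupOf] at hx
        obtain ⟨m, hm⟩ := hgen x ⟨x.2, hx⟩
        have : x = (x * ((⟨l, hl.1⟩ : L) ^ m)⁻¹) * (⟨l, hl.1⟩ : L) ^ m := by group
        rw [this]
        refine Subgroup.mul_mem_sup ?_ (zpow_mem (mem_zpowers _) m)
        rw [mem_subgroupOf]
        simpa using hm
      · refine sup_le ?_ ?_
        · intro x hx
          rw [mem_subgroupOf] at hx ⊢
          exact (le_sup_left : K ≤ K ⊔ zpowers g) hx
        · rw [zpowers_le, mem_subgroupOf]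
          exact hl.2
    rw [e]; exact SSC.step _ _ ih (e ▸ hn.comap _)

theorem SSC.exists_normal_zpowers {G : Type u} [Group G] {K : Subgroup G}
    (h : SSC (⊥ : Subgroup G) K) : K = ⊥ ∨ ∃ g : G, g ≠ 1 ∧ (zpowers g).Normal := by
  induction h with
  | refl _ => exact Or.inl rfl
  | step K g _ hn ih =>
    rcases ih with rfl | h'
    · by_cases hg : g = 1
      · left; subst hg; simp
      · right; exact ⟨g, hg, by simpa using hn⟩
    · exact Or.inr h'

theorem normal_zpowers_pow {G : Type u} [Group G] {g : G} (h : (zpowers g).Normal) (j : ℕ) :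
    (zpowers (g ^ j)).Normal := by
  constructor
  intro n hn x
  obtain ⟨k, rfl⟩ := mem_zpowers_iff.mp hn
  obtain ⟨a, ha⟩ := mem_zpowers_iff.mp (h.conj_mem g (mem_zpowers g) x)
  have : x * (g ^ j) ^ k * x⁻¹ = ((g ^ j) ^ a) ^ k := by
    rw [← conj_zpow, ← conj_pow, ← ha]
    congr 1
    rw [← zpow_natCast, ← zpow_mul, ← zpow_natCast, ← zpow_mul, mul_comm]
  rw [this]
  exact zpow_mem (zpow_mem (mem_zpowers _) a) k

theorem exists_normal_prime_card {G : Type u} [Group G] [Finite G] [Nontrivial G]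
    (h : Cfsg.IsSupersolvable G) : ∃ N : Subgroup G, N.Normal ∧ (Nat.card N).Prime := by
  rcases (isSupersolvable_iff.mp h).exists_normal_zpowers with h0 | ⟨g, hg, hn⟩
  · exact absurd h0 top_ne_bot
  · have hm : orderOf g ≠ 1 := fun h1 => hg (orderOf_eq_one_iff.mp h1)
    have hpos : orderOf g ≠ 0 := (orderOf_pos g).ne'
    have hp := Nat.minFac_prime hm
    refine ⟨zpowers (g ^ (orderOf g / (orderOf g).minFac)), normal_zpowers_pow hn _, ?_⟩
    rw [Nat.card_zpowers, orderOf_pow_orderOf_div hpos (Nat.minFac_dvd _)]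
    exact hp

theorem SSC.of_isCyclic {G : Type u} [Group G] (N : Subgroup G) [N.Normal] [IsCyclic N] :
    SSC (⊥ : Subgroup G) N := by
  obtain ⟨g, hg⟩ := IsCyclic.exists_generator (α := N)
  have e : N = ⊥ ⊔ zpowers (g : G) := by
    rw [bot_sup_eq]
    apply le_antisymm
    · intro x hx
      obtain ⟨k, hk⟩ := mem_zpowers_iff.mp (hg ⟨x, hx⟩)
      rw [mem_zpowers_iff]
      exact ⟨k, by simpa using congrArg Subtype.val hk⟩
    · rw [zpowers_le]; exact g.2
  have hN : N.Normal := inferInstance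
  rw [e] at hN ⊢
  exact SSC.step _ _ (SSC.refl inferInstance) hN

theorem isSupersolvable_of_ssc_of_quotient {G : Type u} [Group G] (N : Subgroup G) [N.Normal]
    (h1 : SSC (⊥ : Subgroup G) N) (h2 : Cfsg.IsSupersolvable (G ⧸ N)) :
    Cfsg.IsSupersolvable G := by
  rw [isSupersolvable_iff] at h2 ⊢
  refine h1.trans ?_
  have := h2.comap (QuotientGroup.mk' N) (QuotientGroup.mk'_surjective N)
  rwa [MonoidHom.comap_bot, QuotientGroup.ker_mk', Subgroup.comap_top] at this

theorem isSupersolvable_of_surjective {G : Type u} {G' : Type v} [Group G] [Group G']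
    (f : G →* G') (hf : Function.Surjective f) (h : Cfsg.IsSupersolvable G) :
    Cfsg.IsSupersolvable G' := by
  rw [isSupersolvable_iff] at h ⊢
  have := h.map_surjective f hf
  rwa [Subgroup.map_bot, Subgroup.map_top_of_surjective f hf] at this

theorem isSupersolvable_subgroup {G : Type u} [Group G] (L : Subgroup G)
    (h : Cfsg.IsSupersolvable G) : Cfsg.IsSupersolvable L := by
  rw [isSupersolvable_iff] at h ⊢
  have := h.subgroupOf L
  rwa [Subgroup.bot_subgroupOf, Subgroup.top_subgroupOf] at this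

theorem isSupersolvable_of_subsingleton {G : Type u} [Group G] [Subsingleton G] :
    Cfsg.IsSupersolvable G := by
  rw [isSupersolvable_iff]
  have : (⊤ : Subgroup G) = ⊥ := Subsingleton.elim _ _
  rw [this]
  exact SSC.refl inferInstance

theorem map_inl_eq_prod_bot {G : Type u} {H : Type v} [Group G] [Group H] (K : Subgroup G) :
    K.map (MonoidHom.inl G H) = K.prod ⊥ := by
  ext ⟨a, b⟩
  simp only [Subgroup.mem_map, MonoidHom.inl_apply, Prod.mk.injEq, Subgroup.mem_prod,
    Subgroup.mem_bot]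
  constructor
  · rintro ⟨x, hx, rfl, rfl⟩; exact ⟨hx, rfl⟩
  · rintro ⟨ha, rfl⟩; exact ⟨a, ha, rfl, rfl⟩

theorem isSupersolvable_prod {G : Type u} {H : Type v} [Group G] [Group H]
    (hG : Cfsg.IsSupersolvable G) (hH : Cfsg.IsSupersolvable H) :
    Cfsg.IsSupersolvable (G × H) := by
  rw [isSupersolvable_iff] at hG hH ⊢
  have h1 := hG.map (MonoidHom.inl G H) (fun K hK => by
    rw [map_inl_eq_prod_bot]; infer_instance)
  have h2 := hH.comap (MonoidHom.snd G H) Prod.snd_surjective
  have e : (⊤ : Subgroup G).map (MonoidHom.inl G H) = (⊥ : Subgroup H).comap (MonoidHom.snd G H) := by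
    rw [map_inl_eq_prod_bot]
    ext ⟨a, b⟩
    simp [Subgroup.mem_prod]
  rw [Subgroup.map_bot, e] at h1
  rw [Subgroup.comap_top] at h2
  exact h1.trans h2

end Cfsg.Agent.Lib.Helper9
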