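import Mathlib
import Cfsg.Agent.Lib.Helper9.Supersolvable

set_option autoImplicit false

namespace Cfsg.Agent.Lib.Helper9

open Subgroup
open scoped Pointwise

universe u v

theorem isCoatom_map_of_surjective_of_ker_le {G : Type u} {G' : Type v} [Group G] [Group G']
    (f : G →* G') (hf : Function.Surjective f) {M : Subgroup G} (hM : IsCoatom M)
    (hker : f.ker ≤ M) : IsCoatom (M.map f) := by
  have e : (M.map f).comap f = M := by rw [comap_map_eq, sup_eq_left.mpr hker]
  constructor
  · intro h
    apply hM.1
    rw [← e, h, comap_top]
  · intro K' hlt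
    have h1 : M < K'.comap f := by
      have := (Subgroup.comap_lt_comap_of_surjective hf).mpr hlt
      rwa [e] at this
    have h2 := hM.2 _ h1
    rw [← map_comap_eq_self_of_surjective hf K', h2, map_top_of_surjective f hf]

theorem card_quotient_lt_of_prime_card {G : Type u} [Group G] [Finite G] (N : Subgroup G)
    [N.Normal] (hp : (Nat.card N).Prime) : Nat.card (G ⧸ N) < Nat.card G := by
  have h1 : Nat.card N * Nat.card (G ⧸ N) = Nat.card G := by
    rw [← Subgroup.index_eq_card, Subgroup.card_mul_index]
  have h2 : 0 < Nat.card (G ⧸ N) := Nat.card_pos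
  have h3 := hp.two_le
  nlinarith

theorem prime_index_of_isCoatom : ∀ (n : ℕ) (G : Type u) [Group G] [Finite G],
    Nat.card G = n → Cfsg.IsSupersolvable G → ∀ M : Subgroup G, IsCoatom M → M.index.Prime := by
  intro n
  induction n using Nat.strong_induction_on with
  | _ n ih =>
    intro G _ _ hcard hG M hM
    have hnt : Nontrivial G := by
      by_contra h
      rw [not_nontrivial_iff_subsingleton] at h
      exact hM.1 (Subsingleton.elim _ _)
    obtain ⟨N, hN, hp⟩ := exists_normal_prime_card hG
    by_cases hNM : N ≤ M
    · have hq : Cfsg.IsSupersolvable (G ⧸ N) :=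
        isSupersolvable_of_surjective (QuotientGroup.mk' N) (QuotientGroup.mk'_surjective N) hG
      have hlt : Nat.card (G ⧸ N) < n := hcard ▸ card_quotient_lt_of_prime_card N hp
      have hker : (QuotientGroup.mk' N).ker ≤ M := by rw [QuotientGroup.ker_mk']; exact hNM
      have hco := isCoatom_map_of_surjective_of_ker_le (QuotientGroup.mk' N)
        (QuotientGroup.mk'_surjective N) hM hker
      have := ih _ hlt (G ⧸ N) rfl hq _ hco
      rwa [Subgroup.index_map_eq _ (QuotientGroup.mk'_surjective N) hker] at this
    · have hsup : N ⊔ M = ⊤ := by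
        apply hM.2
        refine lt_of_le_of_ne le_sup_right (fun h => hNM ?_)
        rw [h]; exact le_sup_left
      have hdisj : Disjoint N M := by
        have : Fact (Nat.card N).Prime := ⟨hp⟩
        rcases (M.subgroupOf N).eq_bot_or_eq_top_of_prime_card with h | h
        · exact (subgroupOf_eq_bot.mp h).symm
        · exact absurd (subgroupOf_eq_top.mp h) hNM
      have hmul : (N : Set G) * (M : Set G) = Set.univ := by
        rw [← Subgroup.normal_mul, hsup, Subgroup.coe_top]
      have hc := isComplement'_of_disjoint_and_mul_eq_univ hdisj hmul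
      rw [hc.index_eq_card]
      exact hp

end Cfsg.Agent.Lib.Helper9
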