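import Cfsg.Agent.S4051
import Cfsg.Agent.Lib.Helper8.CoprimeSylow
import Cfsg.Agent.Lib.Helper9.ConjLemmas
import Cfsg.Agent.Lib.Helper9.CarterSys2

set_option autoImplicit false

namespace Cfsg.Agent.Lib.Helper9

open Subgroup
open scoped Pointwise

universe u

/-- Wielandt (abelian case): two abelian Hall subgroups of the same order of a subgroup `M` are
conjugate by an element of `M`. -/
theorem wielandt_abelian {G : Type u} [Group G] [Finite G] :
    ∀ (n : ℕ) (M H₁ H₂ : Subgroup G), Nat.card M ≤ n → H₁ ≤ M → H₂ ≤ M →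
      (∀ x ∈ H₁, ∀ y ∈ H₁, x * y = y * x) → (∀ x ∈ H₂, ∀ y ∈ H₂, x * y = y * x) →
      Nat.card H₁ = Nat.card H₂ → (Nat.card H₁).Coprime (H₁.relIndex M) →
      ∃ m ∈ M, MulAut.conj m • H₁ = H₂ := by
  intro n
  induction n with
  | zero =>
    intro M H₁ H₂ hn
    exact absurd hn (by have := Nat.card_pos (α := M); omega)
  | succ n ih =>
    intro M H₁ H₂ hn h1M h2M hc1 hc2 hcard hhall
    by_cases hH1 : Nat.card H₁ = 1
    · have e1 : H₁ = ⊥ := Subgroup.card_eq_one.mp hH1
      have e2 : H₂ = ⊥ := Subgroup.card_eq_one.mp (hcard ▸ hH1)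
      exact ⟨1, M.one_mem, by rw [e1, e2, Subgroup.smul_bot]⟩
    · obtain ⟨p, hp, hpd⟩ := Nat.exists_prime_and_dvd hH1
      have hpf : Fact p.Prime := ⟨hp⟩
      obtain ⟨S₁⟩ : Nonempty (Sylow p H₁) := inferInstance
      obtain ⟨S₂⟩ : Nonempty (Sylow p H₂) := inferInstance
      obtain ⟨P₁, hP₁def⟩ : ∃ P₁ : Subgroup G, P₁ = (S₁ : Subgroup H₁).map H₁.subtype := ⟨_, rfl⟩
      obtain ⟨P, hPdef⟩ : ∃ P : Subgroup G, P = (S₂ : Subgroup H₂).map H₂.subtype := ⟨_, rfl⟩
      have hP₁ : IsPGroup p P₁ := by rw [hP₁def]; exact S₁.isPGroup'.map _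
      have hP : IsPGroup p P := by rw [hPdef]; exact S₂.isPGroup'.map _
      have hP₁H : P₁ ≤ H₁ := by rw [hP₁def]; exact Subgroup.map_subtype_le _
      have hPH₂ : P ≤ H₂ := by rw [hPdef]; exact Subgroup.map_subtype_le _
      obtain ⟨v, hv⟩ : ∃ v, v = (Nat.card H₁).factorization p := ⟨_, rfl⟩
      have hcP₁ : Nat.card P₁ = p ^ v := by
        rw [hP₁def, Subgroup.card_map_of_injective H₁.subtype_injective, S₁.card_eq_multiplicity, hv]
      have hcP : Nat.card P = p ^ v := by
        rw [hPdef, Subgroup.card_map_of_injective H₂.subtype_injective, S₂.card_eq_multiplicity,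
          hv, hcard]
      have hv0 : v ≠ 0 := by
        rw [hv]
        intro h0
        have := (Nat.factorization_eq_zero_iff _ _).mp h0
        rcases this with h | h | h
        · exact h hp
        · exact h hpd
        · exact (Nat.card_pos (α := H₁)).ne' h
      have hPM : P ≤ M := hPH₂.trans h2M
      have hM1 := card_mul_relIndex_of_le h1M
      have hM2 := card_mul_relIndex_of_le h2M
      have hpr : ¬ p ∣ H₁.relIndex M := fun h =>
        hp.one_lt.ne' (Nat.eq_one_of_dvd_coprimes hhall hpd h)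
      have hidx : ¬ p ∣ P.relIndex M := by
        intro hdvd
        have h3 := card_mul_relIndex_of_le hPM
        have h4 : p ^ (v + 1) ∣ Nat.card H₁ * H₁.relIndex M := by
          rw [hM1, ← h3, hcP, pow_succ]
          exact Nat.mul_dvd_mul_left _ hdvd
        have h5 : p ^ (v + 1) ∣ Nat.card H₁ :=
          Nat.Coprime.dvd_of_dvd_mul_right
            (Nat.Coprime.pow_left _ ((Nat.Prime.coprime_iff_not_dvd hp).mpr hpr)) h4
        rw [hv] at h5
        exact Nat.pow_succ_factorization_not_dvd (Nat.card_pos (α := H₁)).ne' hp h5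
      obtain ⟨m, hmM, hm⟩ := Cfsg.Agent.Lib.Helper8.h8_exists_conj_le_of_relIndex hPM
        (hP₁H.trans h1M) hP hP₁ hidx
      have hmP : MulAut.conj m • P₁ = P := by
        apply Subgroup.eq_of_le_of_card_ge
        · intro x hx
          rw [mem_conj_smul_iff] at hx
          have h6 : m * (m⁻¹ * x * m) * m⁻¹ ∈ P := hm ⟨_, hx, rfl⟩
          have h7 : m * (m⁻¹ * x * m) * m⁻¹ = x := by group
          rw [h7] at h6; exact h6
        · rw [card_conj_smul, hcP₁, hcP]
      obtain ⟨K₁, hK₁def⟩ : ∃ K₁ : Subgroup G, K₁ = MulAut.conj m • H₁ := ⟨_, rfl⟩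
      have hK₁card : Nat.card K₁ = Nat.card H₁ := by rw [hK₁def, card_conj_smul]
      have hK₁M : K₁ ≤ M := by
        rw [hK₁def]
        intro x hx
        rw [mem_conj_smul_iff] at hx
        have h6 : m * (m⁻¹ * x * m) * m⁻¹ ∈ M :=
          M.mul_mem (M.mul_mem hmM (h1M hx)) (M.inv_mem hmM)
        have h7 : m * (m⁻¹ * x * m) * m⁻¹ = x := by group
        rw [h7] at h6; exact h6
      have hK₁c : ∀ x ∈ K₁, ∀ y ∈ K₁, x * y = y * x := by
        intro x hx y hy
        rw [hK₁def, mem_conj_smul_iff] at hx hy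
        have h6 := hc1 _ hx _ hy
        have h7 : m⁻¹ * (x * y) * m = m⁻¹ * (y * x) * m := by
          calc m⁻¹ * (x * y) * m = (m⁻¹ * x * m) * (m⁻¹ * y * m) := by group
            _ = (m⁻¹ * y * m) * (m⁻¹ * x * m) := h6
            _ = m⁻¹ * (y * x) * m := by group
        exact mul_left_cancel (mul_right_cancel h7)
      have hPK₁ : P ≤ K₁ := by
        rw [← hmP, hK₁def]
        intro x hx
        rw [mem_conj_smul_iff] at hx ⊢
        exact hP₁H hx
      -- the centralizer
      obtain ⟨C, hCdef⟩ : ∃ C : Subgroup G, C = M ⊓ Subgroup.centralizer (P : Set G) := ⟨_, rfl⟩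
      have hCM : C ≤ M := by rw [hCdef]; exact inf_le_left
      have hK₁C : K₁ ≤ C := by
        rw [hCdef]
        refine le_inf hK₁M ?_
        intro x hx
        rw [Subgroup.mem_centralizer_iff]
        intro y hy
        exact hK₁c y (hPK₁ hy) x hx
      have hH₂C : H₂ ≤ C := by
        rw [hCdef]
        refine le_inf h2M ?_
        intro x hx
        rw [Subgroup.mem_centralizer_iff]
        intro y hy
        exact hc2 y (hPH₂ hy) x hx
      have hPC : P ≤ C := hPH₂.trans hH₂C
      have hcent : ∀ y ∈ P, ∀ x ∈ C, x * y = y * x := by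
        intro y hy x hx
        rw [hCdef] at hx
        exact (Subgroup.mem_centralizer_iff.mp hx.2 y hy).symm
      have hpC : ¬ p ∣ P.relIndex C := fun h =>
        hidx (h.trans (Dvd.intro _ (Subgroup.relIndex_mul_relIndex P C M hPC hCM)))
      have hcopC : (Nat.card P).Coprime (P.relIndex C) := by
        rw [hcP]; exact Nat.Coprime.pow_left _ ((Nat.Prime.coprime_iff_not_dvd hp).mpr hpC)
      obtain ⟨T, hTC, hTcard, -⟩ := Cfsg.Agent.S4051.central_hall_sub C P hPC hcent hcopC
      have hcopTP : (Nat.card T).Coprime (Nat.card P) := by rw [hTcard]; exact hcopC.symm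
      have hTNP : T ≤ Subgroup.normalizer (P : Set G) := by
        intro t ht
        apply Subgroup.centralizer_le_normalizer
        have := hTC ht
        rw [hCdef] at this
        exact this.2
      have hPTcard : Nat.card P * Nat.card T = Nat.card C := by
        rw [hTcard]; exact card_mul_relIndex_of_le hPC
      have hsupC : T ⊔ P = C := by
        apply Subgroup.eq_of_le_of_card_ge (sup_le hTC hPC)
        rw [Cfsg.Agent.Lib.Helper7.card_sup_of_coprime hTNP hcopTP, hPTcard]
      -- decomposition of abelian subgroups between P and C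
      have hdec : ∀ K : Subgroup G, P ≤ K → K ≤ C →
          Nat.card K = Nat.card P * Nat.card (K ⊓ T : Subgroup G) ∧ (K ⊓ T) ⊔ P = K := by
        intro K hPK hKC
        have hLN : K ⊓ T ≤ Subgroup.normalizer (P : Set G) := inf_le_right.trans hTNP
        have hcopL : (Nat.card (K ⊓ T : Subgroup G)).Coprime (Nat.card P) :=
          Nat.Coprime.coprime_dvd_left (Subgroup.card_dvd_of_le inf_le_right) hcopTP
        have hsup : (K ⊓ T) ⊔ P = K := by
          apply le_antisymm (sup_le inf_le_left hPK)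
          intro x hx
          have hxC : x ∈ T ⊔ P := by rw [hsupC]; exact hKC hx
          rw [sup_comm] at hxC
          obtain ⟨y, hy, t, ht, rfl⟩ := Cfsg.Agent.Lib.Helper7.exists_mul_of_mem_sup hTNP hxC
          have htK : t ∈ K := by
            have h8 : t = y⁻¹ * (y * t) := by group
            rw [h8]; exact K.mul_mem (K.inv_mem (hPK hy)) hx
          rw [sup_comm]
          exact Subgroup.mul_mem_sup hy (Subgroup.mem_inf.mpr ⟨htK, ht⟩)
        refine ⟨?_, hsup⟩
        rw [← Cfsg.Agent.Lib.Helper7.card_sup_of_coprime hLN hcopL, hsup]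
      obtain ⟨hK₁card', hK₁sup⟩ := hdec K₁ hPK₁ hK₁C
      obtain ⟨hH₂card', hH₂sup⟩ := hdec H₂ hPH₂ hH₂C
      have hPpos : 0 < Nat.card P := Nat.card_pos
      have hLcard : Nat.card (K₁ ⊓ T : Subgroup G) = Nat.card (H₂ ⊓ T : Subgroup G) := by
        have h9 : Nat.card P * Nat.card (K₁ ⊓ T : Subgroup G) =
            Nat.card P * Nat.card (H₂ ⊓ T : Subgroup G) := by
          rw [← hK₁card', ← hH₂card', hK₁card, hcard]
        exact Nat.eq_of_mul_eq_mul_left hPpos h9
      have hLT : K₁ ⊓ T ≤ T := inf_le_right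
      have hLhall : (Nat.card (K₁ ⊓ T : Subgroup G)).Coprime ((K₁ ⊓ T).relIndex T) := by
        have h10 := card_mul_relIndex_of_le hLT
        have h11 := card_mul_relIndex_of_le hCM
        have h12 := card_mul_relIndex_of_le hK₁M
        have hLpos : 0 < Nat.card (K₁ ⊓ T : Subgroup G) := Nat.card_pos
        have h13 : (K₁ ⊓ T).relIndex T * C.relIndex M = K₁.relIndex M := by
          have h14 : Nat.card P * Nat.card (K₁ ⊓ T : Subgroup G) *
              ((K₁ ⊓ T).relIndex T * C.relIndex M) =
              Nat.card P * Nat.card (K₁ ⊓ T : Subgroup G) * K₁.relIndex M := by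
            have hA : Nat.card P * Nat.card (K₁ ⊓ T : Subgroup G) *
                ((K₁ ⊓ T).relIndex T * C.relIndex M) = Nat.card M := by
              calc Nat.card P * Nat.card (K₁ ⊓ T : Subgroup G) *
                  ((K₁ ⊓ T).relIndex T * C.relIndex M)
                  = Nat.card P * (Nat.card (K₁ ⊓ T : Subgroup G) * (K₁ ⊓ T).relIndex T) *
                    C.relIndex M := by ring
                _ = Nat.card M := by rw [h10, hPTcard, h11]
            have hB : Nat.card P * Nat.card (K₁ ⊓ T : Subgroup G) * K₁.relIndex M =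
                Nat.card M := by
              rw [← hK₁card', h12]
            rw [hA, hB]
          exact Nat.eq_of_mul_eq_mul_left (Nat.mul_pos hPpos hLpos) h14
        have h15 : K₁.relIndex M = H₁.relIndex M := by
          have h16 : Nat.card H₁ * K₁.relIndex M = Nat.card H₁ * H₁.relIndex M := by
            rw [hM1, ← hK₁card, h12]
          exact Nat.eq_of_mul_eq_mul_left Nat.card_pos h16
        apply Nat.Coprime.coprime_dvd_left (Subgroup.card_dvd_of_le (inf_le_left : K₁ ⊓ T ≤ K₁))
        rw [hK₁card]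
        apply Nat.Coprime.coprime_dvd_right _ hhall
        rw [← h15, ← h13]
        exact Dvd.intro _ rfl
      have hTn : Nat.card T ≤ n := by
        have h17 : 2 ≤ Nat.card P := by
          rw [hcP]
          calc 2 ≤ p := hp.two_le
            _ ≤ p ^ v := Nat.le_self_pow hv0 p
        have h18 : Nat.card C ≤ Nat.card M := Subgroup.card_le_of_le hCM
        have hTpos : 0 < Nat.card T := Nat.card_pos
        have h19 : 2 * Nat.card T ≤ Nat.card P * Nat.card T := Nat.mul_le_mul_right _ h17
        omega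
      obtain ⟨k, hkT, hk⟩ := ih T (K₁ ⊓ T) (H₂ ⊓ T) hTn hLT inf_le_right
        (fun x hx y hy => hK₁c x hx.1 y hy.1) (fun x hx y hy => hc2 x hx.1 y hy.1) hLcard hLhall
      have hkP : MulAut.conj k • P = P := conj_smul_eq_self_iff_mem_normalizer.mpr (hTNP hkT)
      refine ⟨k * m, M.mul_mem (hCM (hTC hkT)) hmM, ?_⟩
      rw [conj_smul_smul, ← hK₁def, ← hK₁sup, Subgroup.smul_sup, hk, hkP, hH₂sup]

end Cfsg.Agent.Lib.Helper9
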